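import Cfsg.Agent.E7P.Base.EqU
import Cfsg.Agent.R2.T1.Inf.Pat
import Cfsg.Agent.R2.T1.Inf.LCnt
import Cfsg.Agent.R2.H28.SL2.Chr
import Cfsg.Agent.R2.H28.SL2.Dims

/-!
# S5932: `A` is reducible on `V` and on the Lie algebra (helper36, task RED)

An irreducible module of `SL₂(K)` is some `V_b`.
* `p = 3` : the dimension of `V_b` is `2 ^ i 3 ^ j`, but `7` divides `56` and `133`;
* `p ≥ 5` : the character of `V_b` at an element of order `3` is `0, 1, -1`; the elements of order `3` of `E₇` have other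
  values (`T3`).
-/

set_option autoImplicit false
set_option maxRecDepth 100000

namespace Cfsg.Agent.E7P

open Cfsg Cfsg.Lie Matrix Module
open Cfsg.Agent.H943.E7V.Block (D1 rho)
open Cfsg.Agent.R2.T1 Cfsg.Agent.E7P.Kf
open Cfsg.Agent.H943.SL2Mod (Bf Bb mem_Bf Irr)
open Cfsg.Agent.H943.RepAdd (eig mem_eig)
open Cfsg.Agent.H179.SLC (IsSS isSS_of_trace irr_iso)
open Cfsg.Agent.R2.H28.SL2 (mf chi chB chB_zero chB_mul chi_zero chi_one chi_two card_Bf_low isMult_rb sum_single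
  neg_one_pow_Q pow_eq_one_of_isSS)
open Cfsg.Agent.H952.F4 (ev)

universe u v

namespace Red

section
variable (k : Type*) [Field k] [DecidableEq k]

theorem card_Bf_zero : (Bf k 0).card = 1 := by
  have h : Bf k 0 = {0} := by
    ext m
    rw [mem_Bf, Finset.mem_singleton]
    constructor
    · intro h
      exact Nat.le_zero.1 h.1
    · rintro rfl
      exact ⟨le_rfl, by rw [Nat.choose_self, Nat.cast_one]; exact one_ne_zero⟩
  rw [h, Finset.card_singleton]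

/-- the dimensions in characteristic `3` -/
theorem not_seven_dvd [CharP k 3] (b : ℕ) : ¬ 7 ∣ (Bf k b).card := by
  have : Fact (Nat.Prime 3) := ⟨Nat.prime_three⟩
  induction b using Nat.strong_induction_on with
  | _ b ih =>
    by_cases hb : b = 0
    · rw [hb, card_Bf_zero]
      decide
    · rw [card_Bf_low k 3 b]
      intro h
      rcases (Nat.Prime.dvd_mul (by norm_num)).1 h with h1 | h1
      · have h2 := Nat.le_of_dvd (Nat.succ_pos _) h1
        omega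
      · exact ih (b / 3) (by omega) h1

theorem chi_three {z : ℂ} (hz : z ^ 2 + z + 1 = 0) (n : ℕ) :
    (chi n z = 1 ∧ chi (n + 1) z = -1) ∨ (chi n z = -1 ∧ chi (n + 1) z = 0) ∨ (chi n z = 0 ∧ chi (n + 1) z = 1) := by
  have h0 : z ≠ 0 := by
    rintro rfl
    norm_num at hz
  have h1 : z + z⁻¹ = -1 := by
    have h2 : z * z⁻¹ = 1 := mul_inv_cancel₀ h0
    linear_combination z⁻¹ * hz - (z + 1) * h2
  induction n with
  | zero => exact Or.inl ⟨chi_zero z, by rw [zero_add, chi_one, h1]⟩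
  | succ n ih =>
    have h2 := chi_two n h0
    rw [h1] at h2
    rcases ih with ⟨h3, h4⟩ | ⟨h3, h4⟩ | ⟨h3, h4⟩
    · exact Or.inr (Or.inl ⟨h4, by rw [h2, h3, h4]; norm_num⟩)
    · exact Or.inr (Or.inr ⟨h4, by rw [h2, h3, h4]; norm_num⟩)
    · exact Or.inl ⟨h4, by rw [h2, h3, h4]; norm_num⟩

theorem pow_three_red {R : Type*} [Monoid R] {z : R} (hz : z ^ 3 = 1) (n : ℕ) : z ^ n = z ^ (n % 3) := by
  conv_lhs => rw [← Nat.div_add_mod n 3, pow_add, pow_mul, hz, one_pow, one_mul]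

/-- the character of `V_b` at an element of order `3` -/
theorem chB_three (p : ℕ) [Fact p.Prime] [CharP k p] (hp : p ≠ 3) (b : ℕ) : ∀ z : ℂ, z ^ 2 + z + 1 = 0 →
    chB k b z = 0 ∨ chB k b z = 1 ∨ chB k b z = -1 := by
  have hpp : p.Prime := Fact.out
  induction b using Nat.strong_induction_on with
  | _ b ih =>
    intro z hz
    by_cases hb : b = 0
    · rw [hb, chB_zero]
      exact Or.inr (Or.inl rfl)
    have h3 : z ^ 3 = 1 := by linear_combination (z - 1) * hz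
    have h1 : (z ^ p) ^ 2 + z ^ p + 1 = 0 := by
      have h4 : p % 3 ≠ 0 := fun h4 =>
        hp ((Nat.prime_dvd_prime_iff_eq Nat.prime_three hpp).1 (Nat.dvd_of_mod_eq_zero h4)).symm
      rw [pow_three_red h3 p]
      obtain h5 | h5 : p % 3 = 1 ∨ p % 3 = 2 := by omega
      · rw [h5, pow_one]
        exact hz
      · rw [h5]
        linear_combination hz + z * h3
    have h2 := ih (b / p) (Nat.div_lt_self (Nat.pos_of_ne_zero hb) hpp.one_lt) _ h1
    have h4 := chB_mul k p (b / p) (Nat.mod_lt b hpp.pos) z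
    rw [Nat.div_add_mod] at h4
    rw [h4]
    rcases chi_three hz (b % p) with ⟨h5, -⟩ | ⟨h5, -⟩ | ⟨h5, -⟩ <;> rcases h2 with h2 | h2 | h2 <;> rw [h5, h2] <;> norm_num

theorem pow_inv_red {R : Type*} [Field R] {z : R} (hz : z ^ 3 = 1) (m n : ℕ) :
    z ^ m * z⁻¹ ^ n = z ^ ((m + 2 * n) % 3) := by
  have h1 : z⁻¹ = z ^ 2 := inv_eq_of_mul_eq_one_right (by rw [← pow_succ', hz])
  rw [h1, ← pow_mul, ← pow_add, ← pow_three_red hz]

variable {k}

theorem chB_eq_mf {ζ : k} (hζ : IsPrimitiveRoot ζ 3) {z : ℂ} (hz : z ^ 3 = 1) (b : ℕ) :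
    chB k b z = ∑ j ∈ Finset.range 3, (mf b ζ (ζ ^ j) : ℂ) * z ^ j := by
  unfold chB
  rw [← Finset.sum_fiberwise_of_maps_to (t := Finset.range 3) (g := fun m => (m + 2 * (b - m)) % 3)
    (fun m _ => Finset.mem_range.2 (Nat.mod_lt _ (by norm_num)))]
  refine Finset.sum_congr rfl fun j hj => ?_
  have h1 : (Bf k b).filter (fun m => ζ ^ m * ζ⁻¹ ^ (b - m) = ζ ^ j) =
      (Bf k b).filter fun m => (m + 2 * (b - m)) % 3 = j := by
    refine Finset.filter_congr fun m _ => ?_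
    rw [pow_inv_red hζ.pow_eq_one]
    exact ⟨fun h => hζ.pow_inj (Nat.mod_lt _ (by norm_num)) (Finset.mem_range.1 hj) h, fun h => by rw [h]⟩
  rw [mf, h1, ← nsmul_eq_mul, ← Finset.sum_const]
  refine Finset.sum_congr rfl fun m hm => ?_
  rw [pow_inv_red hz, (Finset.mem_filter.1 hm).2]

/-- the multiplicities of the eigenvalues of an element of order `3` -/
theorem mf_three (p : ℕ) [Fact p.Prime] [CharP k p] (hp : p ≠ 3) {ζ : k} (hζ : IsPrimitiveRoot ζ 3) (b : ℕ)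
    (h : mf b ζ (ζ ^ 1) = mf b ζ (ζ ^ 2)) :
    mf b ζ (ζ ^ 0) ≤ mf b ζ (ζ ^ 1) + 1 ∧ mf b ζ (ζ ^ 1) ≤ mf b ζ (ζ ^ 0) + 1 := by
  obtain ⟨z, hz⟩ : ∃ z : ℂ, IsPrimitiveRoot z 3 := HasEnoughRootsOfUnity.exists_primitiveRoot ℂ 3
  have h1 : z ^ 2 + z + 1 = 0 := by
    have h2 := hz.geom_sum_eq_zero (by norm_num)
    rw [Finset.sum_range_succ, Finset.sum_range_succ, Finset.sum_range_one] at h2
    linear_combination h2
  have h2 := chB_three k p hp b z h1
  rw [chB_eq_mf hζ hz.pow_eq_one, Finset.sum_range_succ, Finset.sum_range_succ, Finset.sum_range_one, ← h] at h2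
  have h3 : ∀ c : ℤ, (mf b ζ (ζ ^ 0) : ℂ) * z ^ 0 + (mf b ζ (ζ ^ 1) : ℂ) * z ^ 1 + (mf b ζ (ζ ^ 1) : ℂ) * z ^ 2 = c →
      (mf b ζ (ζ ^ 0) : ℤ) - mf b ζ (ζ ^ 1) = c := fun c hc => by
    have h4 : (((mf b ζ (ζ ^ 0) : ℤ) - mf b ζ (ζ ^ 1) : ℤ) : ℂ) = c := by
      push_cast
      linear_combination hc - (mf b ζ (ζ ^ 1) : ℂ) * h1
    exact_mod_cast h4
  rcases h2 with h2 | h2 | h2
  · have := h3 0 (by rw [h2, Int.cast_zero])
    omega
  · have := h3 1 (by rw [h2, Int.cast_one])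
    omega
  · have := h3 (-1) (by rw [h2, Int.cast_neg, Int.cast_one])
    omega

end

theorem eig_eq {k G W : Type*} [Field k] [Group G] [AddCommGroup W] [Module k W] (ρ : Representation k G W) (g : G)
    (μ : k) : finrank k (eig ρ g μ) = ev (ρ g) μ := by
  have h : eig ρ g μ = Module.End.eigenspace (ρ g) μ := by
    ext x
    rw [mem_eig, Module.End.mem_eigenspace_iff]
  rw [h]
  rfl

theorem T3_spec : ∀ P ∈ T3, (P.1.getD 1 0 = P.1.getD 2 0 ∧ (P.1.getD 1 0 + 1 < P.1.getD 0 0 ∨ P.1.getD 0 0 + 1 < P.1.getD 1 0)) ∧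
    (P.2.getD 1 0 = P.2.getD 2 0 ∧ (P.2.getD 1 0 + 1 < P.2.getD 0 0 ∨ P.2.getD 0 0 + 1 < P.2.getD 1 0)) := by
  decide

end Red

namespace Sit

open Red

variable {p a b : ℕ} {F : Type u} {K : Type v} {k : Type u} [Field F] [Fintype F] [Field K] [Fintype K] [Field k]
  (S : Sit p a b F K k)

/-- an element of order `3` of `A` and its eigenvalues -/
theorem red_elt (hp : p ≠ 3) : ∃ (g : SpecialLinearGroup (Fin 2) K) (ζ : k), IsPrimitiveRoot ζ 3 ∧ IsSS S.ι g ζ ∧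
    ∃ P ∈ T3, ∀ j < 3, ev (S.R g) (ζ ^ j) = P.1.getD j 0 ∧ ev (S.RL g) (ζ ^ j) = P.2.getD j 0 := by
  classical
  have := S.closed
  have := S.chark
  have := S.charK
  have : Fact p.Prime := ⟨S.prime⟩
  have h3 : ((3 : ℕ) : k) ≠ 0 := fun h =>
    hp ((Nat.prime_dvd_prime_iff_eq S.prime Nat.prime_three).1 ((CharP.cast_eq_zero_iff k p 3).1 h))
  have : NeZero ((3 : ℕ) : k) := ⟨h3⟩
  obtain ⟨ζ, hζ⟩ : ∃ ζ : k, IsPrimitiveRoot ζ 3 := HasEnoughRootsOfUnity.exists_primitiveRoot k 3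
  have hζ0 : ζ ≠ 0 := hζ.ne_zero (by norm_num)
  have h1 : ζ⁻¹ = ζ ^ 2 := inv_eq_of_mul_eq_one_right (by rw [← pow_succ', hζ.pow_eq_one])
  have h2 := hζ.geom_sum_eq_zero (by norm_num)
  rw [Finset.sum_range_succ, Finset.sum_range_succ, Finset.sum_range_one] at h2
  let g : SpecialLinearGroup (Fin 2) K := ⟨!![0, -1; 1, -1], by simp [Matrix.det_fin_two]⟩
  have hg : IsSS S.ι g ζ := by
    refine isSS_of_trace S.ι hζ0 ?_ fun h => ?_
    · show S.ι (0 + -1) = _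
      rw [zero_add, map_neg, map_one, h1]
      linear_combination -h2
    · rw [h1] at h
      have h4 := hζ.pow_inj (i := 1) (j := 2) (by norm_num) (by norm_num) (by rw [pow_one]; exact h)
      omega
  have hg3 : S.ψ g ^ 3 = 1 := by rw [← map_pow, pow_eq_one_of_isSS S.ι hg hζ.pow_eq_one, map_one]
  have hζu : IsPrimitiveRoot (Units.mk0 ζ hζ0) 3 := IsPrimitiveRoot.coe_units_iff.1 hζ
  obtain ⟨P, hP, h4⟩ := exists_pat chk3 (by norm_num) hζu
    (frameK p S.alg (by norm_num) (coprime_of_cast S.prime h3) hg3)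
  exact ⟨g, ζ, hζ, hg, P, hP, h4⟩

/-- the irreducible modules of `A` -/
theorem red_irr {W : Type*} [AddCommGroup W] [Module k W] [FiniteDimensional k W]
    {ρ : Representation k (SpecialLinearGroup (Fin 2) K) W} (hI : Irr ρ) (h7 : 7 ∣ finrank k W)
    (h3 : p ≠ 3 → ∃ (g : SpecialLinearGroup (Fin 2) K) (ζ : k) (l : List ℕ), IsPrimitiveRoot ζ 3 ∧ IsSS S.ι g ζ ∧
      (l.getD 1 0 = l.getD 2 0 ∧ (l.getD 1 0 + 1 < l.getD 0 0 ∨ l.getD 0 0 + 1 < l.getD 1 0)) ∧
      ∀ j < 3, ev (ρ g) (ζ ^ j) = l.getD j 0) : False := by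
  classical
  have := S.closed
  have := S.chark
  have := S.charK
  have : Fact p.Prime := ⟨S.prime⟩
  obtain ⟨c, hc, φ, hφ⟩ := irr_iso S.ι p ρ S.ι.injective (neg_one_pow_Q S.ι) hI
  have hM := isMult_rb S.ι p S.cardK hc ρ φ hφ
  have hc' : c < p ^ a := by
    have h1 := S.eleven
    rw [S.cardK] at hc
    omega
  by_cases hp : p = 3
  · subst hp
    have h1 := hM.dim
    rw [sum_single hc' fun c => (Bf k c).card] at h1
    exact not_seven_dvd k c (h1 ▸ h7)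
  obtain ⟨g, ζ, l, hζ, hg, ⟨h1, h2⟩, h4⟩ := h3 hp
  have hk3 : ((3 : ℕ) : k) ≠ 0 := fun h =>
    hp ((Nat.prime_dvd_prime_iff_eq S.prime Nat.prime_three).1 ((CharP.cast_eq_zero_iff k p 3).1 h))
  have h5 : ∀ j < 3, mf c ζ (ζ ^ j) = l.getD j 0 := fun j hj => by
    have h6 := hM.eigen g ζ 3 hg hζ.pow_eq_one hk3 (ζ ^ j) (by rw [← pow_mul, mul_comm, pow_mul, hζ.pow_eq_one, one_pow])
    rw [sum_single hc' fun c => mf c ζ (ζ ^ j), eig_eq] at h6
    rw [← h6, h4 j hj]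
  have h6 := mf_three p hp hζ c (by rw [h5 1 (by norm_num), h5 2 (by norm_num), h1])
  rw [h5 0 (by norm_num), h5 1 (by norm_num)] at h6
  omega

/-- **RED** for the 56-dimensional module (all `p`) -/
theorem redV' : S.RED (rho k) := by
  by_contra h
  refine S.red_irr (ρ := S.R) ⟨Module.nontrivial_of_finrank_pos (R := k) (by rw [finrank_V]; norm_num), fun W hW => ?_⟩
    (by rw [finrank_V]; norm_num) fun hp => ?_
  · by_contra h1
    exact h ⟨W, fun h2 => h1 (Or.inl h2), fun h2 => h1 (Or.inr h2), fun x y hy => hW x y hy⟩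
  · obtain ⟨g, ζ, h1, h2, P, hP, h3⟩ := S.red_elt hp
    exact ⟨g, ζ, P.1, h1, h2, (T3_spec P hP).1, fun j hj => (h3 j hj).1⟩

/-- **RED** for the Lie algebra (all `p`) -/
theorem redL' : S.RED (adM k) := by
  by_contra h
  refine S.red_irr (ρ := S.RL) ⟨Module.nontrivial_of_finrank_pos (R := k) (by rw [finrank_L]; norm_num), fun W hW => ?_⟩
    (by rw [finrank_L]; norm_num) fun hp => ?_
  · by_contra h1
    refine h ⟨W, fun h2 => h1 (Or.inl h2), fun h2 => h1 (Or.inr h2), fun x y hy => ?_⟩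
    rw [← L_mulVec]
    exact hW x y hy
  · obtain ⟨g, ζ, h1, h2, P, hP, h3⟩ := S.red_elt hp
    exact ⟨g, ζ, P.2, h1, h2, (T3_spec P hP).2, fun j hj => (h3 j hj).2⟩

/-- **RED** for the 56-dimensional module -/
theorem redV (_ : p ≠ 2) : S.RED (rho k) := S.redV'

/-- **RED** for the Lie algebra -/
theorem redL (_ : p ≠ 2) : S.RED (adM k) := S.redL'

end Sit

end Cfsg.Agent.E7P
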